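import Cfsg.Prelude.Def_Blocks
import Mathlib
import Cfsg.Agent.Characters.Core
import Cfsg.Agent.Characters.ClassMul
import Cfsg.Agent.Blocks.Local
import Cfsg.Agent.Blocks.Basic
import Cfsg.Agent.Blocks.ConvCentral
import Cfsg.Agent.Blocks.PElements

/-!
# Class multiplication constants summed over the `p`-elements

`exists_weights`: there are algebraic integers `m χ` (`χ ∈ Irr(G)`) such that for all `x`, `y` for
which no product `g h⁻¹` of a conjugate `g` of `x` and the inverse of a conjugate `h` of `y` is a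
nonidentity `p`-element, `∑_χ χ(x⁻¹) m(χ) ω_χ(y)` is `|G|_{p'}` if `x` and `y` are conjugate and `0`
otherwise.
-/

set_option autoImplicit false

open Cfsg
open scoped ComplexConjugate

namespace Cfsg.Agent.H664.RobinsonBlocks

open Cfsg.Agent.Blocks.Basic Cfsg.Agent.Blocks.Local Cfsg.Agent.Blocks.PElements

/-- The number of ways to write a `p`-element as `g⁻¹ h` with `g ∼ x`, `h ∼ y`, when no
nonidentity `p`-element is such a product. -/
theorem card_pairs {G : Type*} [Group G] [Finite G] {p : ℕ} {x y : G}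
    (hsep : ∀ g h : G, IsConj x g → IsConj y h → ∀ k : ℕ, 0 < k → orderOf (g * h⁻¹) ≠ p ^ k)
    {z : G} (hz : z ∈ pElements G p) (hz1 : z ≠ 1) :
    Nat.card {q : G × G // IsConj x⁻¹ q.1 ∧ IsConj y q.2 ∧ q.1 * q.2 = z} = 0 := by
  rw [Nat.card_eq_zero]
  left
  refine ⟨fun ⟨q, h1, h2, h3⟩ => ?_⟩
  obtain ⟨k, hk⟩ := hz
  have hk0 : 0 < k := by
    rcases Nat.eq_zero_or_pos k with rfl | h
    · exact absurd (by simpa using hk) hz1
    · exact h
  have h4 : IsConj x q.1⁻¹ := by
    obtain ⟨c, hc⟩ := isConj_iff.1 h1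
    exact isConj_iff.2 ⟨c, by rw [← hc]; group⟩
  refine hsep _ _ h4 h2 k hk0 ?_
  rw [← hk, ← h3, ← orderOf_inv (q.1 * q.2)]
  have h5 : q.1⁻¹ * q.2⁻¹ = MulAut.conj q.2 (q.1 * q.2)⁻¹ := by
    rw [MulAut.conj_apply]; group
  rw [h5]
  exact MulEquiv.orderOf_eq _ _

open Classical in
/-- The number of ways to write `1` as `g⁻¹ h` with `g ∼ x`, `h ∼ y`. -/
theorem card_pairs_one {G : Type*} [Group G] [Finite G] (x y : G) :
    Nat.card {q : G × G // IsConj x⁻¹ q.1 ∧ IsConj y q.2 ∧ q.1 * q.2 = 1} =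
      if IsConj x y then (Subgroup.centralizer ({y} : Set G)).index else 0 := by
  split_ifs with hxy
  · rw [index_centralizer_eq_ncard, ← Nat.card_coe_set_eq]
    refine Nat.card_congr ⟨fun q => ⟨q.1.2, q.2.2.1⟩, fun h => ⟨(h.1⁻¹, h.1), ?_, h.2, ?_⟩, ?_, ?_⟩
    · obtain ⟨c, hc⟩ := isConj_iff.1 (hxy.trans h.2)
      exact isConj_iff.2 ⟨c, by rw [← hc]; group⟩
    · exact inv_mul_cancel _
    · rintro ⟨⟨a, b⟩, h1, h2, h3⟩
      apply Subtype.ext
      apply Prod.ext
      · exact (eq_inv_of_mul_eq_one_left h3).symm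
      · rfl
    · rintro ⟨a, b⟩
      rfl
  · rw [Nat.card_eq_zero]
    left
    refine ⟨fun ⟨q, h1, h2, h3⟩ => hxy ?_⟩
    have h4 : q.2 = q.1⁻¹ := eq_inv_of_mul_eq_one_right h3
    have h5 : IsConj x q.1⁻¹ := by
      obtain ⟨c, hc⟩ := isConj_iff.1 h1
      exact isConj_iff.2 ⟨c, by rw [← hc]; group⟩
    rw [← h4] at h5
    exact h5.trans h2.symm

open Classical in
/-- **Class multiplication constants summed over the `p`-elements.** -/
theorem exists_weights (G : Type*) [Group G] [Finite G] [Fintype (IrrCharacter G)] (p : ℕ)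
    [Fact p.Prime] :
    ∃ m : IrrCharacter G → ℂ, (∀ χ, IsIntegral ℤ (m χ)) ∧
      ∀ x y : G, (∀ g h : G, IsConj x g → IsConj y h → ∀ k : ℕ, 0 < k →
          orderOf (g * h⁻¹) ≠ p ^ k) →
        ∑ χ : IrrCharacter G, (χ : G → ℂ) x⁻¹ * m χ * centralChar (χ : G → ℂ) y =
          if IsConj x y then ((Nat.card G / p ^ (Nat.card G).factorization p : ℕ) : ℂ) else 0 := by
  have := Fintype.ofFinite G
  have hex : ∀ χ : IrrCharacter G, ∃ a : ℂ, IsIntegral ℤ a ∧
      ∑ᶠ z ∈ pElements G p, conj ((χ : G → ℂ) z) =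
        ((p ^ (Nat.card G).factorization p : ℕ) : ℂ) * a := by
    intro χ
    exact exists_integral_sum_pElements
      (Cfsg.Agent.Characters.Core.isCharacter_conj (irr_isCharacter χ.2))
  choose m hm1 hm2 using hex
  refine ⟨m, hm1, fun x y hsep => ?_⟩
  have hfin : (pElements G p).Finite := Set.toFinite _
  have h1mem : (1 : G) ∈ hfin.toFinset := by
    rw [Set.Finite.mem_toFinset]
    exact ⟨0, by simp⟩
  -- the sum of the class multiplication constants
  have hA : ∑ z ∈ hfin.toFinset,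
      (Nat.card {q : G × G // IsConj x⁻¹ q.1 ∧ IsConj y q.2 ∧ q.1 * q.2 = z} : ℂ) =
      if IsConj x y then ((Subgroup.centralizer ({y} : Set G)).index : ℂ) else 0 := by
    rw [Finset.sum_eq_single_of_mem 1 h1mem]
    · rw [card_pairs_one x y]
      split_ifs <;> simp
    · intro z hz hz1
      rw [card_pairs hsep (hfin.mem_toFinset.1 hz) hz1]
      simp
  have hB : ∑ z ∈ hfin.toFinset,
      (Nat.card {q : G × G // IsConj x⁻¹ q.1 ∧ IsConj y q.2 ∧ q.1 * q.2 = z} : ℂ) =
      ((Subgroup.centralizer ({x⁻¹} : Set G)).index : ℂ) / (Nat.card G : ℂ) *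
        ((p ^ (Nat.card G).factorization p : ℕ) : ℂ) *
        ∑ χ : IrrCharacter G, (χ : G → ℂ) x⁻¹ * m χ * centralChar (χ : G → ℂ) y := by
    rw [Finset.sum_congr rfl fun z _ => Cfsg.Agent.Characters.ClassMul.card_class_mul x⁻¹ y z,
      ← Finset.mul_sum, Finset.sum_comm, Finset.mul_sum, Finset.mul_sum]
    refine Finset.sum_congr rfl fun χ _ => ?_
    have h2 := hm2 χ
    rw [finsum_mem_eq_finite_toFinset_sum _ hfin] at h2
    rw [← Finset.sum_div, ← Finset.mul_sum, h2, centralChar_def]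
    ring
  rw [hA] at hB
  have hinv : (Subgroup.centralizer ({x⁻¹} : Set G)).index =
      (Subgroup.centralizer ({x} : Set G)).index := by
    congr 1
    ext g
    simp only [Subgroup.mem_centralizer_singleton_iff]
    constructor
    · intro h
      have := congrArg (fun t => x * t * x) h
      simp only [mul_assoc] at this
      simpa [← mul_assoc] using this.symm
    · intro h
      have := congrArg (fun t => x⁻¹ * t * x⁻¹) h
      simp only [mul_assoc] at this
      simpa [← mul_assoc] using this.symm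
  rw [hinv] at hB
  have hG : (Nat.card G : ℂ) ≠ 0 := by exact_mod_cast Nat.card_pos.ne'
  have hx : ((Subgroup.centralizer ({x} : Set G)).index : ℂ) ≠ 0 := by
    exact_mod_cast Subgroup.index_ne_zero_of_finite
  have hp : ((p ^ (Nat.card G).factorization p : ℕ) : ℂ) ≠ 0 := by
    exact_mod_cast (pow_pos (Fact.out : p.Prime).pos _).ne'
  have hmul : ((Nat.card G / p ^ (Nat.card G).factorization p : ℕ) : ℂ) *
      ((p ^ (Nat.card G).factorization p : ℕ) : ℂ) = (Nat.card G : ℂ) := by
    have := Nat.ordProj_mul_ordCompl_eq_self (Nat.card G) p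
    rw [mul_comm]
    exact_mod_cast this
  set S := ∑ χ : IrrCharacter G, (χ : G → ℂ) x⁻¹ * m χ * centralChar (χ : G → ℂ) y with hS
  have hS' : S = ((Nat.card G / p ^ (Nat.card G).factorization p : ℕ) : ℂ) /
      ((Subgroup.centralizer ({x} : Set G)).index : ℂ) *
      (if IsConj x y then ((Subgroup.centralizer ({y} : Set G)).index : ℂ) else 0) := by
    rw [hB, ← hmul]
    have : ((Nat.card G / p ^ (Nat.card G).factorization p : ℕ) : ℂ) ≠ 0 := by
      intro h0
      rw [h0, zero_mul] at hmul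
      exact hG hmul.symm
    field_simp
  rw [hS']
  split_ifs with hxy
  · rw [← index_centralizer_isConj hxy]
    field_simp
  · rw [mul_zero]

end Cfsg.Agent.H664.RobinsonBlocks
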