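import Cfsg.Prelude.Def_Blocks
import Mathlib
import Cfsg.Agent.H664.RobinsonBlocks
import Cfsg.Agent.Blocks.MinMax
import Cfsg.Agent.Blocks.DefectCard
import Cfsg.Agent.S0906
import Cfsg.Agent.S0908
import Cfsg.Agent.S0911
import Cfsg.Agent.S0135

/-!
# Blocks with a given defect group from `p`-separated classes (Robinson)

* `exists_rows_det_ne_zero`: if `det (A * W) ≠ 0` then some selection of rows of `W` has nonzero
  determinant.
* `isDefectGroup_of_mem`: if `χ(x⁻¹)` and `ω_χ(y)` are nonzero modulo `M` and `D` is a Sylow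
  `p`-subgroup of the centralizer of `x` and of `y`, then `D` is a defect group of the block of `χ`.
* `exists_blocks`: Robinson's theorem on blocks with a given defect group.
-/

set_option autoImplicit false

open Cfsg
open scoped ComplexConjugate

namespace Cfsg.Agent.H664.RobinsonMain

open Cfsg.Agent.Blocks.Basic Cfsg.Agent.Blocks.Local Cfsg.Agent.Blocks.PElements

/-- A selection of rows with nonzero determinant. -/
theorem exists_rows_det_ne_zero {k : Type*} [Field k] {r : ℕ} {ι : Type*} [Fintype ι]
    (A : Fin r → ι → k) (W : ι → Fin r → k) (h : Matrix.det (Matrix.of fun i j : Fin r =>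
      ∑ c, A i c * W c j) ≠ 0) :
    ∃ c : Fin r → ι, (∀ i, A i (c i) ≠ 0) ∧ Matrix.det (Matrix.of fun i j : Fin r => W (c i) j) ≠ 0 := by
  classical
  have h1 : Matrix.det (Matrix.of fun i j : Fin r => ∑ c, A i c * W c j) =
      ∑ c : Fin r → ι, (∏ i, A i (c i)) * Matrix.det (Matrix.of fun i j : Fin r => W (c i) j) := by
    have h2 := (Matrix.detRowAlternating (R := k) (n := Fin r)).toMultilinearMap.map_sum
      (g := fun i (c : ι) => A i c • W c)
    have h3 : (fun i : Fin r => ∑ c : ι, A i c • W c) =
        Matrix.of fun i j : Fin r => ∑ c, A i c * W c j := by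
      funext i j
      simp [Finset.sum_apply]
    rw [h3] at h2
    have h4 : ∀ c : Fin r → ι, (Matrix.detRowAlternating (R := k) (n := Fin r)).toMultilinearMap
        (fun i => A i (c i) • W (c i)) =
        (∏ i, A i (c i)) * Matrix.det (Matrix.of fun i j : Fin r => W (c i) j) := by
      intro c
      rw [MultilinearMap.map_smul_univ]
      rfl
    rw [← Finset.sum_congr rfl fun c _ => h4 c]
    exact h2
  rw [h1] at h
  obtain ⟨c, -, hc⟩ := Finset.exists_ne_zero_of_sum_ne_zero h
  refine ⟨c, fun i hi => hc ?_, fun hd => hc ?_⟩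
  · rw [Finset.prod_eq_zero (Finset.mem_univ i) hi, zero_mul]
  · rw [hd, mul_zero]

section Defect

variable {G : Type*} [Group G] [Finite G] {p : ℕ} [Fact p.Prime] {M : Ideal AlgInt}

/-- The exponent of `p` in the index of the centralizer of `x` when `D` is a Sylow `p`-subgroup of
the centralizer. -/
theorem factorization_index {x : G} {D : Subgroup G} (hD : IsSylowCentralizer p x D) {d : ℕ}
    (hd : Nat.card D = p ^ d) : d + (Subgroup.centralizer ({x} : Set G)).index.factorization p =
      (Nat.card G).factorization p := by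
  obtain ⟨S, hS⟩ := hD
  have h1 : Nat.card D = Nat.card S := by
    rw [hS]
    exact Nat.card_congr
      (Subgroup.equivMapOfInjective _ _ (Subgroup.subtype_injective _)).toEquiv.symm
  rw [h1, S.card_eq_multiplicity] at hd
  have h2 := Nat.pow_right_injective (Fact.out : p.Prime).two_le hd
  rw [← h2, ← Subgroup.card_mul_index (Subgroup.centralizer ({x} : Set G)),
      Nat.factorization_mul Nat.card_pos.ne' Subgroup.index_ne_zero_of_finite]
  rfl

omit [Finite G] in
theorem index_centralizer_inv (x : G) : (Subgroup.centralizer ({x⁻¹} : Set G)).index =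
      (Subgroup.centralizer ({x} : Set G)).index := by
    congr 1
    ext g
    simp only [Subgroup.mem_centralizer_singleton_iff]
    constructor
    · intro h
      have := congrArg (fun t => x * t * x) h
      simp only [mul_assoc] at this
      simpa [← mul_assoc] using this.symm
    · intro h
      have := congrArg (fun t => x⁻¹ * t * x⁻¹) h
      simp only [mul_assoc] at this
      simpa [← mul_assoc] using this.symm

/-- The degree of an irreducible character divides the group order. -/
theorem charDegree_dvd {G : Type*} [Group G] [Finite G] {χ : G → ℂ} (hχ : IsIrrCharacter G χ) :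
    charDegree χ ∣ Nat.card G := by
  obtain ⟨n, ρ, hρ, rfl⟩ := hχ
  have h1 : ρ.character 1 = (Module.finrank ℂ (Fin n → ℂ) : ℂ) := Representation.char_one ρ
  rw [charDegree_of_eq h1]
  have := hρ
  exact Cfsg.Agent.S0135.result ρ

omit [Fact p.Prime] in
/-- A character value is in the local ideal if the `p`-part of the degree exceeds that of the class
length. -/
theorem memLocalIdeal_of_factorization_lt (hM : IsPModular p M) {χ : G → ℂ}
    (hχ : IsIrrCharacter G χ) {x : G} (h : (Subgroup.centralizer ({x} : Set G)).index.factorization p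
      < (charDegree χ).factorization p) : MemLocalIdeal M (χ x) := by
  have := Fintype.ofFinite G
  have hP : M.IsPrime := isPrime_of_isPModular hM
  have hint := Cfsg.Agent.Blocks.ConvCentral.isIntegral_centralChar hχ x
  have hx : ((Subgroup.centralizer ({x} : Set G)).index : ℂ) ≠ 0 := by
    exact_mod_cast Subgroup.index_ne_zero_of_finite
  have h1 := irr_one_ne_zero hχ
  have h2 : χ x = centralChar χ x * ((charDegree χ : ℂ) /
      ((Subgroup.centralizer ({x} : Set G)).index : ℂ)) := by
    rw [centralChar_def, ← irr_one_eq_charDegree hχ]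
    field_simp
  rw [h2]
  exact memLocalIdeal_mul_left (memLocalRing_of_isIntegral hint)
    (Cfsg.Agent.Blocks.DefectCard.memLocalIdeal_natDiv hM Subgroup.index_ne_zero_of_finite h)

/-- `D` is a defect group of the block of `χ`. -/
theorem isDefectGroup_of_mem (hM : IsPModular p M) (χ : IrrCharacter G) {x y : G} {D : Subgroup G}
    (hx : IsSylowCentralizer p x D) (hy : IsSylowCentralizer p y D)
    (h1 : ¬ MemLocalIdeal M ((χ : G → ℂ) x⁻¹))
    (h2 : ¬ MemLocalIdeal M (centralChar (χ : G → ℂ) y)) :
    IsDefectGroup p M (blockOf M (χ : G → ℂ)) D := by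
  have hP : M.IsPrime := isPrime_of_isPModular hM
  have hB : IsPBlock M (blockOf M (χ : G → ℂ)) := isPBlock_blockOf χ
  have hχB : χ ∈ blockOf M (χ : G → ℂ) := mem_blockOf_self χ
  obtain ⟨d, hd⟩ := (IsPGroup.iff_card).1 (isPGroup_of_isSylowCentralizer hx)
  have hdx := factorization_index hx hd
  -- the degree of `χ`
  have h3 : (charDegree (χ : G → ℂ)).factorization p ≤
      (Subgroup.centralizer ({x} : Set G)).index.factorization p := by
    by_contra hlt
    push Not at hlt
    rw [← index_centralizer_inv] at hlt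
    exact h1 (memLocalIdeal_of_factorization_lt hM χ.2 hlt)
  obtain ⟨g, hg⟩ := Cfsg.Agent.S0906.result p M hM _ hB
  obtain ⟨D0⟩ : Nonempty (Sylow p (Subgroup.centralizer ({g} : Set G))) := inferInstance
  set D' := (D0 : Subgroup (Subgroup.centralizer ({g} : Set G))).map
    (Subgroup.centralizer ({g} : Set G)).subtype with hD'
  have hdef : IsDefectGroup p M (blockOf M (χ : G → ℂ)) D' := ⟨g, hg, D0, rfl⟩
  have hcard := Cfsg.Agent.S0908.result p M hM _ hB D' hdef
  obtain ⟨t, Q, hQ⟩ := (Cfsg.Agent.S0911.result p M hM _ hB g hg D0 y).2 ⟨χ, hχB, h2⟩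
  have hQS : IsSylowCentralizer p y ((Q : Subgroup (Subgroup.centralizer ({y} : Set G))).map
      (Subgroup.centralizer ({y} : Set G)).subtype) := ⟨Q, rfl⟩
  obtain ⟨s, -, hs⟩ := isSylowCentralizer_conj_of_isConj hy hQS (IsConj.refl y)
  have hcardQ : Nat.card ((Q : Subgroup (Subgroup.centralizer ({y} : Set G))).map
      (Subgroup.centralizer ({y} : Set G)).subtype) = p ^ d := by
    rw [hs, ← hd]
    exact Nat.card_congr (Subgroup.equivMapOfInjective _ _
      (MulAut.conj s).injective).toEquiv.symm
  -- comparison of orders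
  have hle : (Nat.card ((Q : Subgroup (Subgroup.centralizer ({y} : Set G))).map
      (Subgroup.centralizer ({y} : Set G)).subtype)) ≤
      Nat.card (D'.map (MulAut.conj t).toMonoidHom) := by
    rw [hcardQ]
    have : Nat.card (D'.map (MulAut.conj t).toMonoidHom) = Nat.card D' :=
      Nat.card_congr (Subgroup.equivMapOfInjective _ _ (MulAut.conj t).injective).toEquiv.symm
    rw [this, hcard]
    refine Nat.pow_le_pow_right (Fact.out : p.Prime).pos ?_
    rw [blockDefect_def]
    have h4 : sInf ((fun χ : IrrCharacter G => (charDegree (χ : G → ℂ)).factorization p) ''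
        blockOf M (χ : G → ℂ)) ≤ (charDegree (χ : G → ℂ)).factorization p :=
      Nat.sInf_le ⟨χ, hχB, rfl⟩
    omega
  have heq : D'.map (MulAut.conj t).toMonoidHom =
      (Q : Subgroup (Subgroup.centralizer ({y} : Set G))).map
      (Subgroup.centralizer ({y} : Set G)).subtype :=
    Subgroup.eq_of_le_of_card_ge hQ hle
  have h5 : D = D'.map (MulAut.conj (s⁻¹ * t)).toMonoidHom := by
    rw [← map_conj_map_conj, heq, hs, map_conj_map_conj, inv_mul_cancel, map_conj_one]
  rw [h5]
  exact isDefectGroup_conj hdef _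

/-- The degree of a character of height zero. -/
theorem factorization_charDegree_of_height_zero (hM : IsPModular p M) {B : Set (IrrCharacter G)}
    (hB : IsPBlock M B) {D : Subgroup G} (hD : IsDefectGroup p M B D) {χ : IrrCharacter G}
    (hχ : χ ∈ B) (h0 : blockHeight p B (χ : G → ℂ) = 0) {d : ℕ} (hd : Nat.card D = p ^ d) :
    d + (charDegree (χ : G → ℂ)).factorization p = (Nat.card G).factorization p := by
  have h1 := Cfsg.Agent.S0908.result p M hM B hB D hD
  rw [hd] at h1
  have h2 := Nat.pow_right_injective (Fact.out : p.Prime).two_le h1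
  rw [blockDefect_def] at h2
  rw [blockHeight_def] at h0
  have h4 : sInf ((fun χ : IrrCharacter G => (charDegree (χ : G → ℂ)).factorization p) ''
        B) ≤ (charDegree (χ : G → ℂ)).factorization p :=
      Nat.sInf_le ⟨χ, hχ, rfl⟩
  have h5 : (charDegree (χ : G → ℂ)).factorization p ≤ (Nat.card G).factorization p :=
    (Nat.factorization_le_iff_dvd (charDegree_pos χ.2).ne' Nat.card_pos.ne').2
      (charDegree_dvd χ.2) p
  omega

/-- The reduction of a determinant. -/
theorem redC_det [M.IsPrime] {r : ℕ} (A : Fin r → Fin r → ℂ) (hA : ∀ i j, MemLocalRing M (A i j)) :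
    MemLocalRing M (Matrix.det (Matrix.of A)) ∧
      redC M (Matrix.det (Matrix.of A)) = Matrix.det (Matrix.of fun i j => redC M (A i j)) := by
  set A' : Matrix (Fin r) (Fin r) (localRing M) := Matrix.of fun i j => ⟨A i j, hA i j⟩ with hA'
  have h1 : ((Matrix.det A' : localRing M) : ℂ) = Matrix.det (Matrix.of A) := by
    have := (localRing M).subtype.map_det A'
    exact this
  have h2 : red M (Matrix.det A') = Matrix.det (Matrix.of fun i j => redC M (A i j)) := by
    rw [(red M).map_det A']
    congr 1
    ext i j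
    rw [RingHom.mapMatrix_apply, Matrix.map_apply, Matrix.of_apply, hA', Matrix.of_apply,
      redC_def (hA i j)]
  rw [← h1]
  exact ⟨(Matrix.det A').2, by rw [redC_coe, h2]⟩

/-- **Robinson's theorem** on blocks with a given defect group and `p`-separated classes. -/
theorem exists_blocks (hM : IsPModular p M) (D : Subgroup G) {r : ℕ} (x : Fin r → G)
    (hx : ∀ i j : Fin r, IsConj (x i) (x j) → i = j)
    (hD : ∀ i : Fin r, IsSylowCentralizer p (x i) D)
    (hsep : ∀ i j : Fin r, ∀ g h : G, IsConj (x i) g → IsConj (x j) h → ∀ k : ℕ, 0 < k →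
      orderOf (g * h⁻¹) ≠ p ^ k) :
    ∃ c : Fin r → IrrCharacter G, (∀ i, IsDefectGroup p M (blockOf M (c i : G → ℂ)) D) ∧
      ¬ MemLocalIdeal M (Matrix.det (Matrix.of fun i j : Fin r => centralChar (c i : G → ℂ) (x j))) := by
  classical
  have hP : M.IsPrime := isPrime_of_isPModular hM
  have := Fintype.ofFinite G
  have hfin : Finite (IrrCharacter G) := Cfsg.Agent.Characters.Core.finite_irr
  have := Fintype.ofFinite (IrrCharacter G)
  have hp : p.Prime := Fact.out
  obtain ⟨m, hm1, hm2⟩ := RobinsonBlocks.exists_weights G p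
  have hval : ∀ (χ : IrrCharacter G) (g : G), MemLocalRing M ((χ : G → ℂ) g) := fun χ g =>
    memLocalRing_of_isIntegral (Cfsg.Agent.Blocks.DefectCard.isIntegral_irr χ.2 g)
  have hcc : ∀ (χ : IrrCharacter G) (g : G), MemLocalRing M (centralChar (χ : G → ℂ) g) :=
    fun χ g => memLocalRing_of_isIntegral
      (Cfsg.Agent.Blocks.ConvCentral.isIntegral_centralChar χ.2 g)
  -- the matrices over the residue field
  let A : Fin r → IrrCharacter G → ResField M := fun i χ => redC M ((χ : G → ℂ) (x i)⁻¹ * m χ)
  let W : IrrCharacter G → Fin r → ResField M := fun χ j =>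
    if IsDefectGroup p M (blockOf M (χ : G → ℂ)) D then redC M (centralChar (χ : G → ℂ) (x j)) else 0
  set u : ResField M := ((Nat.card G / p ^ (Nat.card G).factorization p : ℕ) : ResField M) with hu
  have hu0 : u ≠ 0 := by
    rw [hu, ← redC_natCast, Ne, redC_eq_zero_iff (memLocalRing_natCast _),
      memLocalIdeal_natCast_iff hM]
    exact Nat.not_dvd_ordCompl hp Nat.card_pos.ne'
  have hAW : (Matrix.of fun i j : Fin r => ∑ c, A i c * W c j) = Matrix.diagonal fun _ => u := by
    ext i j
    rw [Matrix.of_apply, Matrix.diagonal_apply]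
    have h1 : ∑ c, A i c * W c j = ∑ χ : IrrCharacter G,
        redC M ((χ : G → ℂ) (x i)⁻¹ * m χ * centralChar (χ : G → ℂ) (x j)) := by
      refine Finset.sum_congr rfl fun χ _ => ?_
      rw [redC_mul (memLocalRing_mul (hval χ _) (memLocalRing_of_isIntegral (hm1 χ))) (hcc χ _)]
      show redC M ((χ : G → ℂ) (x i)⁻¹ * m χ) * W χ j = _
      simp only [W]
      split_ifs with hdef
      · rfl
      · rw [mul_zero]
        by_contra h0
        have h0' := Ne.symm h0
        have h2 : redC M ((χ : G → ℂ) (x i)⁻¹ * m χ) ≠ 0 := left_ne_zero_of_mul h0'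
        have h3 : redC M (centralChar (χ : G → ℂ) (x j)) ≠ 0 := right_ne_zero_of_mul h0'
        rw [redC_mul (hval χ _) (memLocalRing_of_isIntegral (hm1 χ))] at h2
        have h4 : redC M ((χ : G → ℂ) (x i)⁻¹) ≠ 0 := left_ne_zero_of_mul h2
        rw [Ne, redC_eq_zero_iff (hval χ _)] at h4
        rw [Ne, redC_eq_zero_iff (hcc χ _)] at h3
        exact hdef (isDefectGroup_of_mem hM χ (hD i) (hD j) h4 h3)
    rw [h1, ← redC_sum fun χ _ => memLocalRing_mul (memLocalRing_mul (hval χ _)
      (memLocalRing_of_isIntegral (hm1 χ))) (hcc χ _), hm2 (x i) (x j) (hsep i j)]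
    by_cases hij : i = j
    · subst hij
      rw [if_pos (IsConj.refl _), if_pos rfl, redC_natCast]
    · rw [if_neg fun h => hij (hx i j h), if_neg hij, redC_zero]
  have hdet : Matrix.det (Matrix.of fun i j : Fin r => ∑ c, A i c * W c j) ≠ 0 := by
    rw [hAW, Matrix.det_diagonal]
    exact Finset.prod_ne_zero_iff.2 fun _ _ => hu0
  obtain ⟨c, -, hc⟩ := exists_rows_det_ne_zero A W hdet
  have hgood : ∀ i, IsDefectGroup p M (blockOf M (c i : G → ℂ)) D := by
    intro i
    by_contra hi
    apply hc
    refine Matrix.det_eq_zero_of_row_eq_zero i fun j => ?_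
    simp only [Matrix.of_apply, W, if_neg hi]
  refine ⟨c, hgood, ?_⟩
  have h5 := redC_det (M := M) (fun i j => centralChar (c i : G → ℂ) (x j)) fun i j => hcc _ _
  rw [← redC_eq_zero_iff h5.1, h5.2]
  intro h6
  apply hc
  rw [← h6]
  congr 1
  ext i j
  simp only [Matrix.of_apply, W, if_pos (hgood i)]

/-- The determinant of the values of characters of height zero. -/
theorem det_values (hM : IsPModular p M) (D : Subgroup G) {r : ℕ} (x : Fin r → G)
    (hD : ∀ i : Fin r, IsSylowCentralizer p (x i) D) (B : Fin r → Set (IrrCharacter G))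
    (hB : ∀ i, IsPBlock M (B i)) (hBD : ∀ i, IsDefectGroup p M (B i) D) (c : Fin r → IrrCharacter G)
    (hc : ∀ i, c i ∈ B i)
    (hdet : ¬ MemLocalIdeal M (Matrix.det (Matrix.of fun i j : Fin r =>
      centralChar (c i : G → ℂ) (x j)))) (χ : Fin r → IrrCharacter G)
    (hχ : ∀ i, χ i ∈ B i ∧ blockHeight p (B i) (χ i : G → ℂ) = 0) :
    ¬ MemLocalIdeal M (Matrix.det (Matrix.of fun i j : Fin r => (χ i : G → ℂ) (x j))) := by
  classical
  have hP : M.IsPrime := isPrime_of_isPModular hM
  have := Fintype.ofFinite G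
  have hp : p.Prime := Fact.out
  have hcc : ∀ (χ : IrrCharacter G) (g : G), MemLocalRing M (centralChar (χ : G → ℂ) g) :=
    fun χ g => memLocalRing_of_isIntegral
      (Cfsg.Agent.Blocks.ConvCentral.isIntegral_centralChar χ.2 g)
  obtain h1 := redC_det (M := M) (fun i j => centralChar (c i : G → ℂ) (x j)) fun i j => hcc _ _
  obtain h2 := redC_det (M := M) (fun i j => centralChar (χ i : G → ℂ) (x j)) fun i j => hcc _ _
  have h3 : ¬ MemLocalIdeal M (Matrix.det (Matrix.of fun i j : Fin r =>
      centralChar (χ i : G → ℂ) (x j))) := by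
    rw [← redC_eq_zero_iff h2.1, h2.2]
    rw [← redC_eq_zero_iff h1.1, h1.2] at hdet
    intro h4
    apply hdet
    rw [← h4]
    congr 1
    ext i j
    simp only [Matrix.of_apply]
    rw [redC_eq_iff (hcc _ _) (hcc _ _)]
    exact isPBlock_sameBlock (hB i) (hc i) (hχ i).1 (x j)
  -- units
  rcases Nat.eq_zero_or_pos r with rfl | hr
  · simpa using h3
  obtain ⟨d, hd⟩ := (IsPGroup.iff_card).1 (isPGroup_of_isSylowCentralizer (hD ⟨0, hr⟩))
  obtain ⟨e, he⟩ : ∃ e, d + e = (Nat.card G).factorization p :=
    ⟨_, factorization_index (hD ⟨0, hr⟩) hd⟩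
  have hidx : ∀ j, (Subgroup.centralizer ({x j} : Set G)).index.factorization p = e := by
    intro j
    have := factorization_index (hD j) hd
    omega
  have hdeg : ∀ i, (charDegree (χ i : G → ℂ)).factorization p = e := by
    intro i
    have := factorization_charDegree_of_height_zero hM (hB i) (hBD i) (hχ i).1 (hχ i).2 hd
    omega
  have hpe : (p ^ e).factorization p = e := by
    rw [Nat.Prime.factorization_pow hp]
    simp
  have hpe0 : (p ^ e) ≠ 0 := (pow_pos hp.pos _).ne'
  have hunit : ∀ a b : ℕ, a ≠ 0 → b ≠ 0 → a.factorization p = b.factorization p →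
      MemLocalRing M ((a : ℂ) / (b : ℂ)) ∧ ¬ MemLocalIdeal M ((a : ℂ) / (b : ℂ)) := by
    intro a b ha hb hab
    have h4 : MemLocalRing M ((a : ℂ) / (b : ℂ)) :=
      Cfsg.Agent.Blocks.DefectCard.memLocalRing_natDiv hM hb hab.ge
    have h5 : MemLocalRing M ((b : ℂ) / (a : ℂ)) :=
      Cfsg.Agent.Blocks.DefectCard.memLocalRing_natDiv hM ha hab.le
    refine ⟨h4, fun h6 => ?_⟩
    have h7 := memLocalIdeal_mul_right h6 h5
    have ha' : (a : ℂ) ≠ 0 := by exact_mod_cast ha
    have hb' : (b : ℂ) ≠ 0 := by exact_mod_cast hb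
    have h8 : (a : ℂ) / (b : ℂ) * ((b : ℂ) / (a : ℂ)) = 1 := by field_simp
    rw [h8] at h7
    exact not_memLocalIdeal_one h7
  have hfac : (Matrix.of fun i j : Fin r => (χ i : G → ℂ) (x j)) =
      Matrix.diagonal (fun i => (charDegree (χ i : G → ℂ) : ℂ) / ((p ^ e : ℕ) : ℂ)) *
      (Matrix.of fun i j : Fin r => centralChar (χ i : G → ℂ) (x j)) *
      Matrix.diagonal (fun j => ((p ^ e : ℕ) : ℂ) /
        ((Subgroup.centralizer ({x j} : Set G)).index : ℂ)) := by
    ext i j
    rw [Matrix.mul_diagonal, Matrix.diagonal_mul]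
    simp only [Matrix.of_apply]
    rw [centralChar_def, ← irr_one_eq_charDegree (χ i).2]
    have h4 : ((Subgroup.centralizer ({x j} : Set G)).index : ℂ) ≠ 0 := by
      exact_mod_cast Subgroup.index_ne_zero_of_finite
    have h5 := irr_one_ne_zero (χ i).2
    have h6 : ((p ^ e : ℕ) : ℂ) ≠ 0 := by exact_mod_cast hpe0
    field_simp
  rw [hfac, Matrix.det_mul, Matrix.det_mul, Matrix.det_diagonal, Matrix.det_diagonal]
  have hprod : ∀ f : Fin r → ℂ, (∀ i, MemLocalRing M (f i) ∧ ¬ MemLocalIdeal M (f i)) →
      MemLocalRing M (∏ i, f i) ∧ ¬ MemLocalIdeal M (∏ i, f i) := by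
    intro f hf
    refine ⟨memLocalRing_prod fun i _ => (hf i).1, ?_⟩
    have : ∀ s : Finset (Fin r), ¬ MemLocalIdeal M (∏ i ∈ s, f i) := by
      intro s
      induction s using Finset.induction_on with
      | empty => rw [Finset.prod_empty]; exact not_memLocalIdeal_one
      | insert a s ha ih =>
        rw [Finset.prod_insert ha]
        intro h
        rcases memLocalIdeal_or_of_mul (hf a).1 (memLocalRing_prod fun i _ => (hf i).1) h with h | h
        · exact (hf a).2 h
        · exact ih h
    exact this _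
  have hU := hprod _ fun i => hunit (charDegree (χ i : G → ℂ)) (p ^ e)
    (charDegree_pos (χ i).2).ne' hpe0 (by rw [hdeg, hpe])
  have hV := hprod _ fun j => hunit (p ^ e) (Subgroup.centralizer ({x j} : Set G)).index
    hpe0 Subgroup.index_ne_zero_of_finite (by rw [hidx, hpe])
  intro h
  rcases memLocalIdeal_or_of_mul (memLocalRing_mul hU.1 h2.1) hV.1 h with h | h
  · rcases memLocalIdeal_or_of_mul hU.1 h2.1 h with h | h
    · exact hU.2 h
    · exact h3 h
  · exact hV.2 h

end Defect

end Cfsg.Agent.H664.RobinsonMain
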